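import Cfsg.Agent.N2.Ex.K.Defs
import Cfsg.Agent.E8A.Fix.BorGen

/-!
# S3519, exceptional groups, box (K): basic tools (helper70)

* `dat` : the split datum; `sep` : the torus separates the lattice; `mx y` : matrices; `mx_T`, `xc_entry`, `xc_sub_entry`;
* `rl hp v` : the toral part of `v` as an additive map on the root lattice; `ad_xc_T`, `ad_T_T`;
* `PL` : `T_le_PL`, `X_le_PL`, `PL_le`, `PL_mono`, `U_le_PL`, `bruhat`, `rep_mem_PL`;
* `Frm.rp`, `Frm.mul`, `Frm.map_PL`, `Frm.wfr`, `KF.frm_pow`, `KF.exists_frm`;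
* `PRep.tri`, `PRep.mon`; `adP` : the adjoint module.
-/

set_option autoImplicit false
set_option linter.unusedSectionVars false

namespace Cfsg.Agent.N2.Ex.K

open CoxeterSystem Cfsg Cfsg.Lie Cfsg.Lie.ChevalleyDatum Matrix
open Cfsg.Agent.ChevalleyStructure Cfsg.Agent.ChevalleyStructure.Elts Cfsg.Agent.ChevalleyStructure.CoxeterGeom
  Cfsg.Agent.ChevalleyStructure.CoxeterGeomTypes
open Cfsg.Agent.Tits.Roots Cfsg.Agent.Tits.Core Cfsg.Agent.Nodes Cfsg.Agent.Nodes.Reps Cfsg.Agent.Nodes.BNOf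
  Cfsg.Agent.Nodes.RGDChev Cfsg.Agent.Nodes.Bruhat Cfsg.Agent.Nodes.NormalForm
open Cfsg.Agent.KFacts.RgdField Cfsg.Agent.KFacts.RgdChevCoord
open Cfsg.Agent.BpExc Cfsg.Agent.BpExc.TorCent Cfsg.Agent.BpExc.TorChev Cfsg.Agent.BpExc.Tow
  Cfsg.Agent.BpExc.TowChev Cfsg.Agent.BpExc.Fr Cfsg.Agent.BpExc.LangFr
open Cfsg.Agent.H469.Exc Cfsg.Agent.H129.TorusChar Cfsg.Agent.DS.Ex Cfsg.Agent.DS.Nt Cfsg.Agent.DS.Ex.Tor
  Cfsg.Agent.SB.Exc

variable {D : ChevalleyDatum} {l : ℕ} {M : CoxeterMatrix (Fin l)} (hp : IsType D l M) (p : ℕ) [Fact p.Prime]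

/-- the split datum -/
noncomputable abbrev dat : DL.Datum p (D.group (KK p)).subtype (DL.Ex.frobA hp.inList p 1) ⊤ :=
  DL.Ex.chev hp (locFin p) one_pos

/-- the action of the Weyl group as an additive map -/
noncomputable def rA (w : M.Group) : (Fin l → ℤ) →+ (Fin l → ℤ) := (rep M.toCoxeterSystem hp.isCartan w).toAddMonoidHom

theorem rA_apply (w : M.Group) (a : Fin l → ℤ) : rA hp w a = rep M.toCoxeterSystem hp.isCartan w a := rfl

theorem rA_mul (v w : M.Group) (a : Fin l → ℤ) : rA hp (v * w) a = rA hp v (rA hp w a) := rep_mul_apply _ _ _ _ _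

theorem rA_inv (w : M.Group) (a : Fin l → ℤ) : rA hp w⁻¹ (rA hp w a) = a := rep_inv_apply _ _ _ _

theorem rA_inv' (w : M.Group) (a : Fin l → ℤ) : rA hp w (rA hp w⁻¹ a) = a := rep_apply_inv _ _ _ _

theorem finite_RT : {a | RT hp a}.Finite := (dat hp 2).finite_roots

/-- the torus separates the points of the lattice -/
theorem sep {a b : Fin l → ℤ} (h : ∀ t ∈ TT D (KK p), cX hp t a = cX hp t b) : a = b := by
  refine (dat hp p).eq_of_χ fun t ht => ?_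
  obtain ⟨c, rfl⟩ := ((dat hp p).mem_T t).1 ht
  have h1 := ((DL.Ex.cX_tau hp c a).symm.trans (h _ (DL.Ex.tau_mem hp c))).trans (DL.Ex.cX_tau hp c b)
  exact ((dat hp p).χ_τ a c).trans (h1.trans ((dat hp p).χ_τ b c).symm)

include hp in
theorem mem_T_of_comm {y : YY D p} (h : ∀ t ∈ TT D (KK p), t * y = y * t) : y ∈ TT D (KK p) := by
  have h1 := (dat hp p).centralizer_T
  have h2 : y ∈ (⊤ : Subgroup (YY D p)) ⊓ Subgroup.centralizer ((dat hp p).T : Set (YY D p)) :=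
    ⟨Subgroup.mem_top _, h⟩
  rw [h1] at h2
  exact h2

variable {p}

/-- the matrix of an element -/
def mx (y : YY D p) : Matrix D.Idx D.Idx (KK p) := ((y : GL D.Idx (KK p)) : Matrix D.Idx D.Idx (KK p))

theorem mx_mul (g h : YY D p) : mx (g * h) = mx g * mx h := rfl

theorem mx_one : mx (1 : YY D p) = 1 := rfl

theorem mx_mul_inv (g : YY D p) : mx g * mx g⁻¹ = 1 := by rw [← mx_mul, mul_inv_cancel, mx_one]

theorem mx_inv_mul (g : YY D p) : mx g⁻¹ * mx g = 1 := by rw [← mx_mul, inv_mul_cancel, mx_one]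

theorem mx_injective : Function.Injective (mx : YY D p → _) := fun _ _ h => Subtype.ext (Units.ext h)

theorem ad_eq (y : YY D p) (v : D.Idx → KK p) : ad D p y v = mx y *ᵥ v := rfl

theorem wL_inl (i : Fin D.rank) : wL D l (Sum.inl i) = 0 := rfl

theorem wL_inr (s : Fin D.nroots) : wL D l (Sum.inr s) = vec D l s := rfl

theorem rt_vec (s : Fin D.nroots) : RT hp (vec D l s) := isRoot_vec hp _ s.2

theorem exists_idx {a : Fin l → ℤ} (ha : RT hp a) : ∃ s : Fin D.nroots, vec D l s = a := by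
  obtain ⟨r, hr, e⟩ := (isRoot_iff hp _ a).1 ha
  exact ⟨⟨r, hr⟩, e⟩

theorem mx_T {t : YY D p} (ht : t ∈ TT D (KK p)) : mx t = Matrix.diagonal fun i => cX hp t (wL D l i) := by
  obtain ⟨c, rfl⟩ := (DL.Ex.mem_TT_iff hp t).1 ht
  rw [mx, DL.Ex.coe_tau]
  congr 1
  funext i
  rw [DL.Ex.cX_tau]
  rfl

theorem T_conj_xc {t : YY D p} (ht : t ∈ TT D (KK p)) {a : Fin l → ℤ} (ha : RT hp a) (u : KK p) :
    t * xc hp a u * t⁻¹ = xc hp a (cX hp t a * u) := by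
  obtain ⟨c, rfl⟩ := (DL.Ex.mem_TT_iff hp t).1 ht
  rw [DL.Ex.tau_conj hp _ ha, DL.Ex.cX_tau]

theorem xc_zero {a : Fin l → ℤ} (ha : RT hp a) : xc hp a (0 : KK p) = 1 := (dat hp p).x_zero ha

theorem mem_XX {a : Fin l → ℤ} (ha : RT hp a) {y : YY D p} : y ∈ XX D l (KK p) a ↔ ∃ u, xc hp a u = y :=
  (dat hp p).mem_X a ha y

/-- polynomial functions which are eigenvectors of the torus -/
theorem wt_of_poly {a b : Fin l → ℤ} {f : Polynomial (KK p)}
    (h : ∀ t ∈ TT D (KK p), ∀ u, f.eval (cX hp t a * u) = cX hp t b * f.eval u) {m : ℕ} (hm : f.coeff m ≠ 0) :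
    b = (m : ℤ) • a := by
  refine sep hp p fun t ht => ?_
  have h1 : f.comp (Polynomial.C (cX hp t a) * Polynomial.X) = Polynomial.C (cX hp t b) * f := by
    apply Polynomial.funext
    intro u
    rw [Polynomial.eval_comp, Polynomial.eval_mul, Polynomial.eval_C, Polynomial.eval_X, h t ht, Polynomial.eval_mul,
      Polynomial.eval_C]
  have h2 := congrArg (fun g => Polynomial.coeff g m) h1
  simp only [Polynomial.comp_C_mul_X_coeff, Polynomial.coeff_C_mul] at h2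
  rw [(isMC_cX hp ht).zsmul, zpow_natCast]
  exact (mul_left_cancel₀ hm (h2.trans (mul_comm _ _))).symm

theorem xc_poly {a : Fin l → ℤ} (ha : RT hp a) (i k : D.Idx) : ∃ f : Polynomial (KK p),
    (∀ u, mx (xc hp a u) i k = f.eval u) ∧ ∀ m, f.coeff m ≠ 0 → wL D l i = wL D l k + (m : ℤ) • a := by
  obtain ⟨f, hf⟩ := (dat hp p).polyx a ha i k
  have hf' : ∀ u, mx (xc hp a u) i k = f.eval u := hf
  refine ⟨f, hf', fun m hm => ?_⟩
  rw [← sub_eq_iff_eq_add']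
  refine wt_of_poly hp (fun t ht u => ?_) hm
  have h1 : mx (xc hp a (cX hp t a * u)) * mx t = mx t * mx (xc hp a u) := by
    rw [← T_conj_xc hp ht ha, ← mx_mul, ← mx_mul, inv_mul_cancel_right]
  have h2 := congrFun (congrFun h1 i) k
  rw [mx_T hp ht, mul_diagonal, diagonal_mul, hf', hf'] at h2
  rw [(isMC_cX hp ht).sub, div_mul_eq_mul_div, eq_div_iff ((isMC_cX hp ht).ne_zero _), h2]

theorem xc_entry {a : Fin l → ℤ} (ha : RT hp a) {x : YY D p} (hx : x ∈ XX D l (KK p) a) {i k : D.Idx}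
    (h : mx x i k ≠ 0) : ∃ m : ℕ, wL D l i = wL D l k + (m : ℤ) • a := by
  obtain ⟨u, rfl⟩ := (mem_XX hp ha).1 hx
  obtain ⟨f, h1, h2⟩ := xc_poly (p := p) hp ha i k
  have h3 : f ≠ 0 := by
    rintro rfl
    exact h (by rw [h1, Polynomial.eval_zero])
  exact ⟨_, h2 _ (Polynomial.leadingCoeff_ne_zero.2 h3)⟩

theorem xc_sub_entry {a : Fin l → ℤ} (ha : RT hp a) {x : YY D p} (hx : x ∈ XX D l (KK p) a) {i k : D.Idx}
    (h : (mx x - 1) i k ≠ 0) : ∃ m : ℕ, 1 ≤ m ∧ wL D l i = wL D l k + (m : ℤ) • a := by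
  obtain ⟨u, rfl⟩ := (mem_XX hp ha).1 hx
  obtain ⟨f, h1, h2⟩ := xc_poly (p := p) hp ha i k
  have h3 : f.natDegree ≠ 0 := by
    intro h0
    apply h
    have h4 := h1 0
    rw [xc_zero hp ha, mx_one] at h4
    rw [Matrix.sub_apply, h4, h1, Polynomial.eq_C_of_natDegree_eq_zero h0, Polynomial.eval_C, Polynomial.eval_C, sub_self]
  have h5 : f ≠ 0 := by
    rintro rfl
    exact h3 Polynomial.natDegree_zero
  exact ⟨_, Nat.one_le_iff_ne_zero.2 h3, h2 _ (Polynomial.leadingCoeff_ne_zero.2 h5)⟩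

/-! ### the toral part -/

/-- the toral part of `v` as an additive map on the root lattice -/
noncomputable def rl (v : D.Idx → KK p) : (Fin l → ℤ) →+ KK p where
  toFun a := ∑ i : Fin D.rank, ((pairing (cartanOf D l) (Fin.cast hp.rank_eq i) a : ℤ) : KK p) * v (Sum.inl i)
  map_zero' := by simp [pairing]
  map_add' a b := by
    rw [← Finset.sum_add_distrib]
    refine Finset.sum_congr rfl fun i _ => ?_
    rw [pairing_add, Int.cast_add, add_mul]

theorem rl_apply (v : D.Idx → KK p) (a : Fin l → ℤ) : rl hp v a =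
    ∑ i : Fin D.rank, ((pairing (cartanOf D l) (Fin.cast hp.rank_eq i) a : ℤ) : KK p) * v (Sum.inl i) := rfl

theorem rl_vec (v : D.Idx → KK p) (r : Fin D.nroots) : rl hp v (vec D l r) = E8A.Bor.rvR D r v := by
  rw [rl_apply]
  refine Finset.sum_congr rfl fun i _ => ?_
  rw [pairing_vec hp _ r.2]
  rfl

theorem rl_add (v w : D.Idx → KK p) (a : Fin l → ℤ) : rl hp (v + w) a = rl hp v a + rl hp w a := by
  rw [rl_apply, rl_apply, rl_apply, ← Finset.sum_add_distrib]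
  exact Finset.sum_congr rfl fun i _ => by rw [Pi.add_apply, mul_add]

theorem rl_smul (c : KK p) (v : D.Idx → KK p) (a : Fin l → ℤ) : rl hp (c • v) a = c * rl hp v a := by
  rw [rl_apply, rl_apply, Finset.mul_sum]
  exact Finset.sum_congr rfl fun i _ => by rw [Pi.smul_apply, smul_eq_mul, mul_left_comm]

theorem mx_xc (r : Fin D.nroots) (u : KK p) : mx (xc hp (vec D l r) u) = Ring.xR D (KK p) r.val u := by
  rw [mx, coe_xc hp r.2]
  rfl

/-- the action of a root element on a toral vector -/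
theorem ad_xc_T (r : Fin D.nroots) (u : KK p) {h : D.Idx → KK p} (hh : InT p h) :
    ad D p (xc hp (vec D l r) u) h = h - Pi.single (Sum.inr r) (rl hp h (vec D l r) * u) := by
  rw [ad_eq, mx_xc, E8A.Bor.xR_toral D r u hh, rl_vec]

include hp in
theorem ad_T_T {t : YY D p} (ht : t ∈ TT D (KK p)) {h : D.Idx → KK p} (hh : InT p h) : ad D p t h = h := by
  funext i
  rw [ad_eq, mx_T hp ht, mulVec_diagonal]
  rcases i with i | s
  · rw [wL_inl, (isMC_cX hp ht).zero, one_mul]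
  · rw [hh s, mul_zero]

/-! ### parabolic subgroups -/

section Par

variable {hp} {μ μ' : (Fin l → ℤ) →+ ℝ}

theorem T_le_PL : TT D (KK p) ≤ PL hp p μ := le_sup_right

theorem X_le_PL {a : Fin l → ℤ} (ha : RT hp a) (h : 0 ≤ μ a) : XX D l (KK p) a ≤ PL hp p μ :=
  (RGD.le_Sup (S := {a | RT hp a ∧ 0 ≤ μ a}) ⟨ha, h⟩).trans le_sup_left

theorem PL_le {K : Subgroup (YY D p)} (h1 : TT D (KK p) ≤ K) (h2 : ∀ a, RT hp a → 0 ≤ μ a → XX D l (KK p) a ≤ K) :
    PL hp p μ ≤ K := sup_le (RGD.Sup_le fun a ha => h2 a ha.1 ha.2) h1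

theorem PL_mono (h : ∀ a, RT hp a → 0 ≤ μ a → 0 ≤ μ' a) : PL hp p μ ≤ PL hp p μ' :=
  PL_le T_le_PL fun a ha h0 => X_le_PL ha (h a ha h0)

theorem map_eq_sum (μ : (Fin l → ℤ) →+ ℝ) (a : Fin l → ℤ) : μ a = ∑ i, (a i : ℝ) * μ (sr i) := by
  conv_lhs => rw [IsMC.eq_sum_sr a]
  rw [map_sum]
  exact Finset.sum_congr rfl fun i _ => by rw [map_zsmul, zsmul_eq_mul]

theorem dom_nonneg (hd : ∀ i, 0 ≤ μ (sr i)) {a : Fin l → ℤ} (ha : 0 ≤ a) : 0 ≤ μ a := by
  rw [map_eq_sum]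
  exact Finset.sum_nonneg fun i _ => mul_nonneg (Int.cast_nonneg (ha i)) (hd i)

theorem U_le_PL (hd : ∀ i, 0 ≤ μ (sr i)) : MS D p (RGD.Pos M.toCoxeterSystem hp.isCartan) ≤ PL hp p μ :=
  RGD.Sup_le fun _ ha => X_le_PL ha.1 (dom_nonneg hd ha.2)

theorem exists_sr_ne (h : μ ≠ 0) : ∃ i, μ (sr i) ≠ 0 := by
  by_contra hc
  push Not at hc
  refine h (AddMonoidHom.ext fun a => ?_)
  rw [map_eq_sum, Finset.sum_eq_zero fun i _ => by rw [hc i, mul_zero]]
  rfl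

variable (hp) in
/-- **Bruhat decomposition** -/
theorem bruhat (g : YY D p) : ∃ u ∈ MS D p (RGD.Pos M.toCoxeterSystem hp.isCartan), ∃ w n, RP hp p w n ∧
    ∃ v ∈ MS D p (NW M.toCoxeterSystem hp.isCartan w), g = u * n * v := by
  have := finW hp
  obtain ⟨w, u, hu, k, hk, v, hv, e⟩ := (tw hp p).exists_normal_form (g := g) (by rw [GGW hp p]; exact Subgroup.mem_top _)
  rw [XLe hp p] at hu hv
  exact ⟨u, hu, w, k, hk, v, hv, e⟩

theorem NW_le_U (w : M.Group) :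
    MS D p (NW M.toCoxeterSystem hp.isCartan w) ≤ MS D p (RGD.Pos M.toCoxeterSystem hp.isCartan) :=
  RGD.Sup_mono fun _ ha => ⟨ha.1, ha.2.1⟩

variable (hp) in
theorem rp_nc (i : Fin l) : RP hp p (M.toCoxeterSystem.simple i) (nc hp (KK p) i) := rp_simple _ _ i

theorem rep_mem_PL (hd : ∀ i, 0 ≤ μ (sr i)) : ∀ (k : ℕ) (w : M.Group) (n : YY D p), M.toCoxeterSystem.length w = k →
    RP hp p w n → (∀ a, μ (rA hp w a) = μ a) → n ∈ PL hp p μ := by
  intro k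
  induction k using Nat.strong_induction_on with
  | _ k ih =>
    intro w n hk hn hw
    by_cases h1 : w = 1
    · subst h1
      exact T_le_PL hn.mem_T
    · obtain ⟨i, hi⟩ := M.toCoxeterSystem.exists_rightDescent_of_ne_one h1
      have hneg : rA hp w (sr i) ≤ 0 := nonpos_of_lt M.toCoxeterSystem hp.isCartan w i hi
      have h0 : μ (sr i) = 0 := by
        refine le_antisymm ?_ (hd i)
        have h2 := dom_nonneg hd (neg_nonneg.2 hneg)
        rw [map_neg, hw] at h2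
        exact neg_nonneg.1 h2
      have hw' : ∀ a, μ (rA hp (w * M.toCoxeterSystem.simple i) a) = μ a := fun a => by
        rw [rA_mul, hw, rA_apply, rep_simple_eq, map_sub, map_zsmul, h0, smul_zero, sub_zero]
      have h2 := ih _ (hk ▸ hi) _ _ rfl (hn.mul (rp_nc hp i)) hw'
      have h3 : nc hp (KK p) i ∈ PL hp p μ :=
        (sup_le T_le_PL (sup_le (X_le_PL (isRoot_sr _ _ i) h0.ge)
          (X_le_PL (isRoot_sr _ _ i).neg (by rw [map_neg, h0, neg_zero]))) :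
            TT D (KK p) ⊔ (XX D l (KK p) (sr i) ⊔ XX D l (KK p) (-sr i)) ≤ PL hp p μ) ((dat hp p).n_mem_sup i)
      simpa using mul_mem h2 (inv_mem h3)

end Par

/-! ### frames -/

section Frm

variable {hp} {φ φ' : MulAut (YY D p)} {y y' : YY D p} {ψ ψ' : (Fin l → ℤ) →+ (Fin l → ℤ)}

theorem Frm.rp {w : M.Group} {n : YY D p} (h : RP hp p w n) : Frm hp p 1 n (rA hp w⁻¹) where
  tor t := h.conj_iff t
  chr t ht x := by
    have h1 := h.cX ht (rA hp w⁻¹ x)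
    rw [← rA_apply hp, rA_inv'] at h1
    exact h1
  root := ⟨rA hp w, ⟨fun a ha => ha.act w, fun a _ b _ e => by rw [← rA_inv hp w a, e, rA_inv],
      fun a ha => ⟨rA hp w⁻¹ a, ha.act w⁻¹, rA_inv' hp w a⟩⟩,
    fun a ha => ⟨⟨1, one_pos, by rw [rA_inv, one_smul]⟩, fun x => h.fr.map a ha x⟩⟩

theorem Frm.mul (h : Frm hp p φ y ψ) (h' : Frm hp p φ' y' ψ') : Frm hp p (φ * φ') (y * φ y') (ψ'.comp ψ) := by
  have e : ∀ x, y * φ y' * (φ * φ') x * (y * φ y')⁻¹ = y * φ (y' * φ' x * y'⁻¹) * y⁻¹ := fun x => by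
    rw [map_mul, map_mul, map_inv, MulAut.mul_apply]
    group
  obtain ⟨g, hg, h1⟩ := h.root
  obtain ⟨g', hg', h2⟩ := h'.root
  refine ⟨fun t => by rw [e, h.tor, h'.tor], fun t ht x => ?_, g ∘ g', hg.comp hg', fun a ha => ⟨?_, fun x => ?_⟩⟩
  · rw [e, h.chr _ ((h'.tor t).2 ht), h'.chr t ht]
    rfl
  · obtain ⟨c, hc, e1⟩ := (h1 _ (hg'.mapsTo ha)).1
    obtain ⟨c', hc', e2⟩ := (h2 a ha).1
    refine ⟨c * c', mul_pos hc hc', ?_⟩
    rw [AddMonoidHom.comp_apply, Function.comp_apply, e1, map_zsmul, e2, mul_smul]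
  · rw [e, Function.comp_apply, (h1 _ (hg'.mapsTo ha)).2, (h2 a ha).2]

theorem Frm.left (h : Frm hp p φ y ψ) {w : M.Group} {n : YY D p} (hn : RP hp p w n) :
    Frm hp p φ (n * y) (ψ.comp (rA hp w⁻¹)) := by
  have h1 := (Frm.rp hn).mul h
  rwa [one_mul] at h1

theorem Frm.map_PL (h : Frm hp p φ y ψ) {μ : (Fin l → ℤ) →+ ℝ} {x : YY D p} (hx : x ∈ PL hp p μ) :
    y * φ x * y⁻¹ ∈ PL hp p (μ.comp ψ) := by
  obtain ⟨g, hg, h1⟩ := h.root
  have h2 : PL hp p μ ≤ (PL hp p (μ.comp ψ)).comap (MulAut.conj y * φ).toMonoidHom := by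
    refine PL_le (fun t ht => T_le_PL ((h.tor t).2 ht)) fun a ha h0 x hx => X_le_PL (hg.mapsTo ha) ?_ (((h1 a ha).2 x).2 hx)
    obtain ⟨c, hc, e⟩ := (h1 a ha).1
    rw [AddMonoidHom.comp_apply, e, map_zsmul, zsmul_eq_mul]
    exact mul_nonneg (Int.cast_nonneg hc.le) h0
  exact h2 hx

theorem Frm.comp_ne (h : Frm hp p φ y ψ) {μ : (Fin l → ℤ) →+ ℝ} (hμ : μ ≠ 0) : μ.comp ψ ≠ 0 := by
  obtain ⟨g, -, h1⟩ := h.root
  obtain ⟨i, hi⟩ := exists_sr_ne hμ
  obtain ⟨c, hc, e⟩ := (h1 _ (isRoot_sr _ _ i)).1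
  intro h0
  have h2 : μ (ψ (g (sr i))) = 0 := DFunLike.congr_fun h0 _
  rw [e, map_zsmul, zsmul_eq_mul] at h2
  exact mul_ne_zero (Int.cast_ne_zero.2 hc.ne') hi h2

theorem Frm.wfr (h : Frm hp p φ y ψ) : WFr hp p (MulAut.conj y * φ) := by
  obtain ⟨g, hg, h1⟩ := h.root
  exact ⟨h.tor, fun a ha => ⟨g a, hg.mapsTo ha, (h1 a ha).2⟩⟩

variable {σ : MulAut (YY D p)} {Γ : Subgroup (MulAut (YY D p))}

theorem KF.frm_pow (K : KF hp p σ Γ) (h : ∃ y ψ, Frm hp p φ y ψ) (j : ℕ) : ∃ y ψ, Frm hp p (φ * σ ^ j) y ψ := by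
  induction j with
  | zero => rwa [pow_zero, mul_one]
  | succ j ih =>
    obtain ⟨y, ψ, h1⟩ := ih
    obtain ⟨y', ψ', h2⟩ := K.frmσ
    exact ⟨_, _, by rw [pow_succ, ← mul_assoc]; exact h1.mul h2⟩

/-- finite sets are fixed by a power of `σ` -/
theorem KF.exists_pow (K : KF hp p σ Γ) {Z : Set (YY D p)} (hZ : Z.Finite) : ∃ N, 0 < N ∧ ∀ z ∈ Z, (σ ^ N) z = z := by
  have := hZ.to_subtype
  obtain ⟨N, hN, h⟩ := K.amb.exists_pow_fix (Subtype.val : Z → YY D p)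
  exact ⟨N, hN, fun z hz => h ⟨z, hz⟩⟩

theorem pow_fix {G : Type*} [Group G] {τ : MulAut G} {z : G} (h : τ z = z) (m : ℕ) : (τ ^ m) z = z := by
  induction m with
  | zero => rfl
  | succ m ih => rw [pow_succ, MulAut.mul_apply, h, ih]

/-- on a finite set every lift acts as a lift with a frame -/
theorem KF.exists_frm (K : KF hp p σ Γ) (hφ : φ ∈ Γ) {Z : Set (YY D p)} (hZ : Z.Finite) :
    ∃ φ' ∈ Γ, (∃ y ψ, Frm hp p φ' y ψ) ∧ ∀ z ∈ Z, φ' z = φ z := by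
  obtain ⟨N, hN, h1⟩ := K.exists_pow hZ
  obtain ⟨m, h2⟩ := K.frm φ hφ
  refine ⟨φ * σ ^ m * σ ^ (N * m - m), mul_mem (mul_mem hφ (pow_mem K.mem _)) (pow_mem K.mem _), K.frm_pow h2 _,
    fun z hz => ?_⟩
  rw [mul_assoc, ← pow_add, Nat.add_sub_cancel' (Nat.le_mul_of_pos_left m hN), MulAut.mul_apply, pow_mul,
    pow_fix (h1 z hz)]

end Frm

/-! ### representations -/

section Rep

variable {hp} {S : Type} [Fintype S] [DecidableEq S] (P : PRep hp p S)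

theorem exists_mid {K : Type*} [Field K] {A B : Matrix S S K} {i j : S} (h : (A * B) i j ≠ 0) :
    ∃ k, A i k ≠ 0 ∧ B k j ≠ 0 := by
  rw [Matrix.mul_apply] at h
  obtain ⟨k, -, hk⟩ := Finset.exists_ne_zero_of_sum_ne_zero h
  exact ⟨k, left_ne_zero_of_mul hk, right_ne_zero_of_mul hk⟩

theorem PRep.tri {μ : (Fin l → ℤ) →+ ℝ} {m : YY D p} (hm : m ∈ PL hp p μ) {s s' : S} (h : P.ρ m s s' ≠ 0) :
    μ (P.w s') ≤ μ (P.w s) := by
  let K : Subgroup (YY D p) :=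
    { carrier := {m | (∀ s s', P.ρ m s s' ≠ 0 → μ (P.w s') ≤ μ (P.w s)) ∧
        ∀ s s', P.ρ m⁻¹ s s' ≠ 0 → μ (P.w s') ≤ μ (P.w s)}
      one_mem' := by
        have h1 : ∀ s s', P.ρ 1 s s' ≠ 0 → μ (P.w s') ≤ μ (P.w s) := fun s s' h => by
          rw [map_one] at h
          by_contra hc
          exact h (Matrix.one_apply_ne fun e => hc (by rw [e]))
        exact ⟨h1, by rw [inv_one]; exact h1⟩
      mul_mem' := by
        rintro a b ⟨a1, a2⟩ ⟨b1, b2⟩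
        refine ⟨fun s s' h => ?_, fun s s' h => ?_⟩
        · rw [map_mul] at h
          obtain ⟨k, h1, h2⟩ := exists_mid h
          exact (b1 _ _ h2).trans (a1 _ _ h1)
        · rw [_root_.mul_inv_rev, map_mul] at h
          obtain ⟨k, h1, h2⟩ := exists_mid h
          exact (a2 _ _ h2).trans (b2 _ _ h1)
      inv_mem' := fun h => ⟨h.2, by rw [inv_inv]; exact h.1⟩ }
  have hT : ∀ t ∈ TT D (KK p), ∀ s s', P.ρ t s s' ≠ 0 → μ (P.w s') ≤ μ (P.w s) := fun t ht s s' h => by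
    rw [P.tor t ht] at h
    by_contra hc
    exact h (Matrix.diagonal_apply_ne _ fun e => hc (by rw [e]))
  have hX : ∀ a, RT hp a → 0 ≤ μ a → ∀ x ∈ XX D l (KK p) a, ∀ s s', P.ρ x s s' ≠ 0 → μ (P.w s') ≤ μ (P.w s) :=
    fun a ha h0 x hx s s' h => by
      obtain ⟨k, e⟩ := P.up a ha x hx s s' h
      rw [e, map_add, map_zsmul, zsmul_eq_mul]
      exact le_add_of_nonneg_right (mul_nonneg (Int.cast_nonneg (Int.natCast_nonneg k)) h0)
  have h1 : PL hp p μ ≤ K := PL_le (fun t ht => ⟨hT t ht, hT _ (inv_mem ht)⟩)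
    fun a ha h0 x hx => ⟨hX a ha h0 x hx, hX a ha h0 _ (inv_mem hx)⟩
  exact (h1 hm).1 s s' h

theorem PRep.mon {w : M.Group} {n : YY D p} (hn : RP hp p w n) {s s' : S} (h : P.ρ n s s' ≠ 0) :
    P.w s = rA hp w (P.w s') := by
  rw [← rA_inv' hp w (P.w s)]
  congr 1
  refine sep hp p fun t ht => ?_
  have h1 : P.ρ (n * t * n⁻¹) * P.ρ n = P.ρ n * P.ρ t := by rw [← map_mul, ← map_mul, inv_mul_cancel_right]
  have h2 := congrFun (congrFun h1 s) s'
  rw [P.tor _ (hn.conj_mem ht), P.tor t ht, diagonal_mul, mul_diagonal, mul_comm] at h2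
  rw [← mul_left_cancel₀ h h2]
  exact ((Frm.rp hn).chr t ht _).symm

variable (hp p) in
/-- the adjoint module -/
noncomputable def adP : PRep hp p D.Idx where
  ρ := { toFun := mx, map_one' := mx_one, map_mul' := mx_mul }
  w := wL D l
  poly := ⟨fun i j => MvPolynomial.X (i, j), fun y s s' => by rw [MvPolynomial.aeval_X]; rfl⟩
  tor _ ht := mx_T hp ht
  up _ ha _ hx _ _ h := xc_entry hp ha hx h

end Rep

end Cfsg.Agent.N2.Ex.K
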