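import Mathlib

/-!
# S3519, exceptional groups, box (K): linear algebra for the cofixed space of `F₄`, `p = 2` (helper68)

`ρ` is a matrix representation, `α` an automorphism of the group, `S ρ(g) = ρ(α g) S` (the shift onto the short ideal),
`B` an invariant symmetric form whose radical is the kernel and the image of `S`.
-/

set_option autoImplicit false
set_option linter.unusedSectionVars false

namespace Cfsg.Agent.N2.Ex.K.C4

open Matrix Module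

variable {ι K : Type} [Fintype ι] [DecidableEq ι] [Field K]

/-- the matrix of a partial map -/
def pm (K : Type) [Field K] (φ : ι → Option ι) : Matrix ι ι K := of fun a c => if φ a = some c then 1 else 0

theorem pm_mulVec (φ : ι → Option ι) (v : ι → K) (a : ι) : (pm K φ *ᵥ v) a = (φ a).elim 0 v := by
  rcases h : φ a with _ | b <;> simp [pm, mulVec, dotProduct, h]

theorem pm_mul (φ ψ : ι → Option ι) : pm K φ * pm K ψ = pm K fun a => (φ a).bind ψ := by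
  ext a c
  refine (pm_mulVec φ (fun j => pm K ψ j c) a).trans ?_
  rcases h : φ a with _ | b <;> simp [pm, h]

theorem pm_tr {φ ψ : ι → Option ι} (h : ∀ a c, φ a = some c ↔ ψ c = some a) : (pm K φ)ᵀ = pm K ψ := by
  ext a c
  simp only [pm, transpose_apply, of_apply, h]

theorem pm_add {φ ψ : ι → Option ι} (h : ∀ a, φ a = some a ∧ ψ a = none ∨ φ a = none ∧ ψ a = some a) :
    pm K φ + pm K ψ = 1 := by
  ext a c
  rcases h a with ⟨h1, h2⟩ | ⟨h1, h2⟩ <;> simp [pm, h1, h2, one_apply]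

variable {G : Type} [Group G] (ρ : G →* Matrix ι ι K) (α : MulAut G) (S B : Matrix ι ι K)

/-- the data -/
structure Dat : Prop where
  s : ∀ g, ρ (α g) * S = S * ρ g
  b : ∀ g, (ρ g)ᵀ * B * ρ g = B
  i1 : S * B * B = S
  i2 : B * B + S * Sᵀ = 1
  i3 : Sᵀ * S = B * B
  i4 : Bᵀ = B

/-- the invariant functionals -/
def Iv (Z : Set G) : Submodule K (ι → K) where
  carrier := {f | ∀ z ∈ Z, (ρ z)ᵀ *ᵥ f = f}
  zero_mem' _ _ := mulVec_zero _
  add_mem' hv hw z hz := by rw [mulVec_add, hv z hz, hw z hz]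
  smul_mem' c v hv z hz := by rw [mulVec_smul, hv z hz]

/-- the invariant functionals which vanish on the ideal -/
def Wv (Z : Set G) : Submodule K (ι → K) where
  carrier := {f | f ∈ Iv ρ Z ∧ B *ᵥ (B *ᵥ f) = f}
  zero_mem' := ⟨zero_mem _, by rw [mulVec_zero, mulVec_zero]⟩
  add_mem' hv hw := ⟨add_mem hv.1 hw.1, by rw [mulVec_add, mulVec_add, hv.2, hw.2]⟩
  smul_mem' c v hv := ⟨Submodule.smul_mem _ c hv.1, by rw [mulVec_smul, mulVec_smul, hv.2]⟩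

variable {ρ α S B} {Z : Set G}

theorem tr_inj (z : G) {u v : ι → K} (h : (ρ z)ᵀ *ᵥ u = (ρ z)ᵀ *ᵥ v) : u = v := by
  have h1 := congrArg ((ρ z⁻¹)ᵀ *ᵥ ·) h
  simpa only [mulVec_mulVec, ← transpose_mul, ← map_mul, mul_inv_cancel, map_one, transpose_one, one_mulVec] using h1

theorem Dat.fix (d : Dat ρ α S B) {f : ι → K} (hf : f ∈ Wv ρ B Z) {z : G} (hz : z ∈ Z) :
    ρ (α z) *ᵥ (S *ᵥ (B *ᵥ f)) = S *ᵥ (B *ᵥ f) := by
  have h1 : B *ᵥ (ρ z *ᵥ (B *ᵥ f)) = B *ᵥ (B *ᵥ f) := by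
    refine tr_inj (ρ := ρ) z ?_
    rw [mulVec_mulVec, mulVec_mulVec (B *ᵥ f), d.b, hf.2, hf.1 z hz]
  have h2 : ∀ v, S *ᵥ v = (S * B) *ᵥ (B *ᵥ v) := fun v => by rw [mulVec_mulVec, d.i1]
  rw [mulVec_mulVec, d.s, ← mulVec_mulVec, h2, h1, ← h2]

theorem Dat.inj (d : Dat ρ α S B) {f : ι → K} (hf : f ∈ Wv ρ B Z) (h : S *ᵥ (B *ᵥ f) = 0) : f = 0 := by
  have h1 : B *ᵥ (B *ᵥ (B *ᵥ f)) = 0 := by
    rw [mulVec_mulVec (B *ᵥ f), ← d.i3, ← mulVec_mulVec, h, mulVec_zero]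
  rw [hf.2] at h1
  rw [← hf.2, h1, mulVec_zero]

theorem Dat.split (d : Dat ρ α S B) (Z : Set G) :
    finrank K (Iv ρ Z) ≤ finrank K (Wv ρ B (α ⁻¹' Z)) + finrank K (Wv ρ B Z) := by
  rw [← LinearMap.finrank_range_add_finrank_ker ((toLin' Sᵀ).domRestrict (Iv ρ Z))]
  refine add_le_add (Submodule.finrank_mono ?_) ?_
  · rintro _ ⟨⟨f, hf⟩, rfl⟩
    refine ⟨fun z hz => ?_, ?_⟩
    · show (ρ z)ᵀ *ᵥ (Sᵀ *ᵥ f) = Sᵀ *ᵥ f
      rw [mulVec_mulVec, ← transpose_mul, ← d.s, transpose_mul, ← mulVec_mulVec, hf _ hz]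
    · show B *ᵥ (B *ᵥ (Sᵀ *ᵥ f)) = Sᵀ *ᵥ f
      have h1 := congrArg transpose d.i1
      rw [transpose_mul, transpose_mul, d.i4] at h1
      rw [mulVec_mulVec f B, mulVec_mulVec, h1]
  · rw [← Submodule.finrank_map_subtype_eq]
    refine Submodule.finrank_mono ?_
    rintro _ ⟨⟨f, hf⟩, h, rfl⟩
    refine ⟨hf, ?_⟩
    have h1 : Sᵀ *ᵥ f = 0 := h
    have h2 := congrArg (· *ᵥ f) d.i2
    simp only [add_mulVec, ← mulVec_mulVec, h1, mulVec_zero, add_zero, one_mulVec] at h2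
    exact h2

/-- the bound for a fixed space which is conjugate into a space meeting the ideal in dimension two -/
theorem Dat.le_two (d : Dat ρ α S B) (g : G) (i j : ι)
    (h : ∀ v, (∀ z ∈ Z, ρ (α z) *ᵥ v = v) → ∀ u, ρ g *ᵥ v = S *ᵥ u → (S *ᵥ u) i = 0 → (S *ᵥ u) j = 0 → S *ᵥ u = 0) :
    finrank K (Wv ρ B Z) ≤ 2 := by
  let θ : (ι → K) →ₗ[K] K × K := (LinearMap.proj i).prod (LinearMap.proj j) ∘ₗ toLin' (ρ g * S * B)
  have h1 : Function.Injective (θ.domRestrict (Wv ρ B Z)) := by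
    rw [injective_iff_map_eq_zero]
    rintro ⟨f, hf⟩ h0
    have h2 : ρ g *ᵥ (S *ᵥ (B *ᵥ f)) = S *ᵥ (ρ (α⁻¹ g) *ᵥ (B *ᵥ f)) := by
      rw [mulVec_mulVec, mulVec_mulVec (B *ᵥ f), ← d.s, MulAut.apply_inv_self]
    have h3 : (ρ g * S * B) *ᵥ f = S *ᵥ (ρ (α⁻¹ g) *ᵥ (B *ᵥ f)) := by rw [← h2, mulVec_mulVec, mulVec_mulVec]
    have h4 := h _ (fun z hz => d.fix hf hz) _ h2 (h3 ▸ congrArg Prod.fst h0) (h3 ▸ congrArg Prod.snd h0)
    have h5 := congrArg (ρ g⁻¹ *ᵥ ·) (h2.trans h4)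
    simp only [mulVec_mulVec _ (ρ g⁻¹), ← map_mul, inv_mul_cancel, map_one, one_mulVec, mulVec_zero] at h5
    exact Subtype.ext (d.inj hf h5)
  simpa using LinearMap.finrank_le_finrank_of_injective h1

/-- the cofixed space is dual to the space of invariant functionals -/
theorem quot_le {C : Submodule K (ι → K)} (h : ∀ z ∈ Z, ∀ v, ρ z *ᵥ v - v ∈ C) :
    finrank K ((ι → K) ⧸ C) ≤ finrank K (Iv ρ Z) := by
  rw [(Subspace.quotEquivAnnihilator C).finrank_eq, ← (dotProductEquiv K ι).symm.finrank_map_eq]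
  refine Submodule.finrank_mono ?_
  rintro _ ⟨φ, hφ, rfl⟩ z hz
  obtain ⟨f, rfl⟩ := (dotProductEquiv K ι).surjective φ
  have e : ((dotProductEquiv K ι).symm : Dual K (ι → K) →ₗ[K] ι → K) (dotProductEquiv K ι f) = f :=
    (dotProductEquiv K ι).symm_apply_apply f
  rw [e]
  refine dotProduct_eq _ _ fun v => ?_
  have h1 : f ⬝ᵥ (ρ z *ᵥ v - v) = 0 := (Submodule.mem_dualAnnihilator _).1 hφ _ (h z hz v)
  rw [dotProduct_sub, sub_eq_zero, dotProduct_mulVec] at h1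
  rw [mulVec_transpose, h1]

theorem form_entry (M : Matrix ι ι K) (a c : ι) :
    (Mᵀ * B * M) a c = toLinearMap₂' K B (M *ᵥ Pi.single a 1) (M *ᵥ Pi.single c 1) := by
  rw [toLinearMap₂'_apply', mulVec_single_one, mulVec_single_one, Matrix.mul_assoc, mul_apply]
  rfl

end Cfsg.Agent.N2.Ex.K.C4
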