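import Cfsg.Agent.N2.Ex.K.C4Lin
import Cfsg.Agent.ChevalleyStructure.GraphColumns
import Cfsg.Agent.H79.SimpleGen

/-!
# S3519, exceptional groups, box (K): the invariant form of the adjoint module (helper68)

`J(h_i, h_j) = A i j`, `J(e_s, e_{-s}) = c s`; `iv_le` compares invariant functionals and fixed vectors of a perfect group.
-/

set_option autoImplicit false
set_option linter.unusedSectionVars false

namespace Cfsg.Agent.N2.Ex.K.Co

open Matrix Module Cfsg Cfsg.Lie Cfsg.Lie.ChevalleyDatum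
open Cfsg.Agent.ChevalleyStructure Cfsg.Agent.ChevalleyStructure.GraphColumns Cfsg.Agent.ChevalleyStructure.Elts
open Cfsg.Agent.H79.SimpleGen Cfsg.Agent.N2.Ex.K.C4
open scoped commutatorElement

set_option maxRecDepth 100000

section Lin

variable {ι K : Type} [Fintype ι] [DecidableEq ι] [Field K] {G : Type} [Group G] {ρ : G →* Matrix ι ι K}
  {J : Matrix ι ι K}

/-- a perfect group fixes the vectors which it fixes modulo fixed vectors -/
theorem fix_of_perf (h2 : ∀ g v, J *ᵥ v = 0 → ρ g *ᵥ v = v) {Z : Subgroup G} (perf : ⁅Z, Z⁆ = Z) {v : ι → K}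
    (hv : ∀ z ∈ Z, J *ᵥ (ρ z *ᵥ v - v) = 0) {z : G} (hz : z ∈ Z) : ρ z *ᵥ v = v := by
  let φ : Z →* Multiplicative (ι → K) := MonoidHom.mk' (fun z => Multiplicative.ofAdd (ρ z *ᵥ v - v)) fun a b => by
    have h := h2 a _ (hv b b.2)
    rw [mulVec_sub, mulVec_mulVec, sub_eq_iff_eq_add] at h
    rw [← ofAdd_add, Subgroup.coe_mul, map_mul, h]
    congr 1
    abel
  have h1 : ⁅Z, Z⁆ ≤ φ.ker.map Z.subtype := Subgroup.commutator_le.2 fun a ha b hb =>
    ⟨⁅(⟨a, ha⟩ : Z), (⟨b, hb⟩ : Z)⁆, by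
      rw [SetLike.mem_coe, MonoidHom.mem_ker, map_commutatorElement, commutatorElement_eq_one_iff_mul_comm, mul_comm], rfl⟩
  obtain ⟨y, hy, rfl⟩ := h1 (perf.ge hz)
  exact sub_eq_zero.1 (Multiplicative.ofAdd.injective (MonoidHom.mem_ker.1 hy))

theorem iv_le (h1 : ∀ g, (ρ g)ᵀ * J * ρ g = J) (h2 : ∀ g v, J *ᵥ v = 0 → ρ g *ᵥ v = v) {Z : Subgroup G}
    (perf : ⁅Z, Z⁆ = Z) {F : Submodule K (ι → K)} (hF : ∀ v, (∀ z ∈ Z, ρ z *ᵥ v = v) → v ∈ F) :
    finrank K (Iv ρ (Z : Set G)) ≤ finrank K F := by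
  have a1 : Iv ρ (Z : Set G) ⊓ LinearMap.range (toLin' J) ≤ F.map (toLin' J) := by
    rintro _ ⟨hf, v, rfl⟩
    refine ⟨v, hF v fun z hz => fix_of_perf h2 perf (fun y hy => ?_) hz, rfl⟩
    rw [mulVec_sub, sub_eq_zero]
    refine tr_inj (ρ := ρ) y ?_
    rw [mulVec_mulVec, mulVec_mulVec v, h1]
    exact (hf y hy).symm
  have a2 : LinearMap.ker (toLin' J) ≤ F := fun v hv => hF v fun z _ => h2 z v hv
  have b1 := Submodule.finrank_mono a1
  have b2 := Submodule.finrank_sup_add_finrank_inf_eq (Iv ρ (Z : Set G)) (LinearMap.range (toLin' J))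
  have b3 := Submodule.finrank_le (Iv ρ (Z : Set G) ⊔ LinearMap.range (toLin' J))
  have b4 := LinearMap.finrank_range_add_finrank_ker (toLin' J)
  have b5 := LinearMap.finrank_range_add_finrank_ker ((toLin' J).domRestrict F)
  rw [LinearMap.range_domRestrict, LinearMap.ker_domRestrict, (Submodule.comapSubtypeEquivOfLe a2).finrank_eq] at b5
  omega

end Lin

variable (D : ChevalleyDatum) (c : ℕ → ℤ)

/-- the form on the torus -/
def fa (i j : ℕ) : ℤ := (D.cartanSR.getD i #[]).getD (D.simple j) 0 * c (D.simple j)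

/-- the entries of the chains -/
def tb (r : ℕ) : List (ℕ × ℕ × ℕ × ℤ) :=
  (D.chain.getD r #[]).toList.flatMap fun e => e.2.toList.zipIdx.map fun q => (e.1, q.1.1, q.2 + 1, q.1.2)

/-- the checks for one root -/
def Ok (r : ℕ) : Prop :=
  D.negIdx.getD r 0 = D.nroots - (r + 1) ∧ D.nroots - (r + 1) ≠ r ∧
  (∀ q ∈ tb D r, q.2.1 < D.nroots ∧ q.1 ≠ r ∧ q.1 ≠ D.nroots - (r + 1)) ∧
  ((tb D r).map fun q => (D.nroots - (q.2.1 + 1), q.1, q.2.2.1, c (D.nroots - (q.2.1 + 1)) * q.2.2.2)).isPerm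
    ((tb D r).map fun q => (q.1, D.nroots - (q.2.1 + 1), q.2.2.1, (-1) ^ q.2.2.1 * q.2.2.2 * c (D.nroots - (q.2.1 + 1)))) =
      true ∧
  ∀ i : Fin D.rank, ∑ j : Fin D.rank, fa D c i j * (D.coroot.getD r #[]).getD j 0 = (D.cartanSR.getD i #[]).getD r 0 * c r

instance (r : ℕ) : Decidable (Ok D c r) := by unfold Ok; infer_instance

/-- all checks -/
def OkA : Prop := (∀ s < D.nroots, c (D.nroots - (s + 1)) = c s) ∧ (∀ i < D.rank, ∀ j < D.rank, fa D c i j = fa D c j i) ∧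
  ∀ i < D.rank, Ok D c (D.simple i) ∧ Ok D c (D.neg (D.simple i))

instance : Decidable (OkA D c) := by unfold OkA; infer_instance

/-- the lengths of the coroots of `F₄` -/
def cF (r : ℕ) : ℤ := [1, 1, 1, 2, 1, 1, 1, 2, 2, 2, 2, 2, 2, 2, 2, 1, 1, 1, 2, 2, 2, 1, 1, 1, 1, 1, 1, 2, 2, 2, 1, 1, 1, 2,
  2, 2, 2, 2, 2, 2, 2, 1, 1, 1, 2, 1, 1, 1].getD r 1

theorem cF_cases : ∀ r < 48, cF r = 1 ∨ cF r = 2 := by decide +kernel

theorem ok4 : OkA chevF4 cF := by decide +kernel

theorem ok6 : OkA chevE6 fun _ => 1 := by decide +kernel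

theorem ok7 : OkA chevE7 fun _ => 1 := by decide +kernel

theorem ok8 : OkA chevE8 fun _ => 1 := by decide +kernel

variable {D c} {K : Type} [Field K]

theorem sum_flt {α : Type} (l : List α) (P : α → Prop) [DecidablePred P] (f : α → K) :
    ((l.filter fun a => P a).map f).sum = (l.map fun a => if P a then f a else 0).sum := by
  induction l with
  | nil => rfl
  | cons a l ih => by_cases h : P a <;> simp [h, ih]

theorem cc_sum (f : ℕ × ℤ → K) (r v w : ℕ) :
    ((D.chainCoeff r v w).map f).sum = ((tb D r).map fun q => if q.1 = v ∧ q.2.1 = w then f q.2.2 else 0).sum := by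
  unfold chainCoeff tb
  induction (D.chain.getD r #[]).toList with
  | nil => rfl
  | cons e l ih =>
    rw [List.flatMap_cons, List.map_append, List.sum_append, ← ih, List.map_map]
    by_cases h : e.1 = v
    · rw [List.filter_cons_of_pos (by simpa using h), List.flatMap_cons, List.map_append, List.sum_append, List.map_map,
        sum_flt _ fun q : (ℕ × ℤ) × ℕ => q.1.1 = w]
      simp [h, Function.comp_def]
    · rw [List.filter_cons_of_neg (by simpa using h)]
      simp [h, Function.comp_def]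

theorem rev_eq {n : ℕ} {s : Fin n} {w : ℕ} (hw : w < n) : w = s.rev.val ↔ n - (w + 1) = s.val := by
  have := s.2
  rw [Fin.val_rev]
  omega

theorem x_rr {r : Fin D.nroots} (h : Ok D c r) (t : K) (w v : Fin D.nroots) :
    D.xMat K r t (Sum.inr w) (Sum.inr v) = (if w = v then 1 else 0) + (if v = r.rev ∧ w = r then -(t ^ 2) else 0) +
      ((tb D r).map fun q => if q.1 = v.val ∧ q.2.1 = w.val then ((q.2.2.2 : ℤ) : K) * t ^ q.2.2.1 else 0).sum := by
  have hn : r.rev ≠ r := fun e => h.2.1 (congrArg Fin.val e)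
  have h0 : ∀ v : Fin D.nroots, v = r ∨ v = r.rev →
      ((tb D r).map fun q => if q.1 = v.val ∧ q.2.1 = w.val then ((q.2.2.2 : ℤ) : K) * t ^ q.2.2.1 else 0).sum = 0 :=
      fun v hv => by
    refine List.sum_eq_zero fun x hx => ?_
    obtain ⟨q, hq, rfl⟩ := List.mem_map.1 hx
    refine if_neg fun e => ?_
    rcases hv with rfl | rfl
    · exact (h.2.2.1 q hq).2.1 e.1
    · exact (h.2.2.1 q hq).2.2 e.1
  have h1 : v.val = D.negIdx.getD r 0 ↔ v = r.rev := by rw [h.1, Fin.ext_iff, Fin.val_rev]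
  rw [xMat_rr]
  by_cases e1 : v = r
  · rw [if_pos e1, h0 v (Or.inl e1), e1, if_neg fun e : r = r.rev ∧ w = r => hn e.1.symm, add_zero, add_zero]
  by_cases e2 : v = r.rev
  · rw [if_neg e1, if_pos (h1.2 e2), h0 v (Or.inr e2), add_zero]
    by_cases e3 : w = v
    · rw [if_pos e3, if_pos e3, if_neg fun e => e1 (e3.symm.trans e.2), add_zero]
    · simp [e2, e2 ▸ e3]
  · rw [if_neg e1, if_neg (h1.not.2 e2), if_neg fun e : v = r.rev ∧ w = r => e2 e.1, add_zero, cc_sum]

theorem x_symm (hc : ∀ s < D.nroots, c (D.nroots - (s + 1)) = c s) {r : Fin D.nroots} (h : Ok D c r) (t : K)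
    (s u : Fin D.nroots) : (c s : K) * D.xMat K r t (Sum.inr s.rev) (Sum.inr u) =
      D.xMat K r (-t) (Sum.inr u.rev) (Sum.inr s) * (c u : K) := by
  have h1 := ((List.isPerm_iff.1 h.2.2.2.1).map fun q : ℕ × ℕ × ℕ × ℤ =>
    if q.1 = s ∧ q.2.1 = u then ((q.2.2.2 : ℤ) : K) * t ^ q.2.2.1 else 0).sum_eq
  rw [List.map_map, List.map_map] at h1
  rw [x_rr h, x_rr h, mul_add, mul_add, add_mul, add_mul, ← List.sum_map_mul_left, ← List.sum_map_mul_right]
  refine congrArg₂ _ (congrArg₂ _ ?_ ?_) ((congrArg List.sum (List.map_congr_left fun q hq => ?_)).trans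
    (h1.trans (congrArg List.sum (List.map_congr_left fun q hq => ?_))))
  · by_cases e : s.rev = u
    · subst e
      rw [if_pos rfl, if_pos (Fin.rev_rev s), Fin.val_rev, hc s s.2, mul_comm]
    · rw [if_neg e, if_neg fun e' => e (by rw [← e', Fin.rev_rev]), mul_zero, zero_mul]
  · by_cases e : u = r.rev ∧ s.rev = r
    · obtain ⟨rfl, rfl⟩ := e
      simp [mul_comm]
    · rw [if_neg e, if_neg fun e' => e ⟨by rw [← e'.2, Fin.rev_rev], by rw [e'.1, Fin.rev_rev]⟩, mul_zero, zero_mul]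
  · simp only [Function.comp_apply, rev_eq (h.2.2.1 q hq).1]
    by_cases e : q.1 = u ∧ D.nroots - (q.2.1 + 1) = s
    · rw [if_pos e, if_pos e.symm, e.2, Int.cast_mul, mul_assoc]
    · rw [if_neg e, if_neg fun e' => e e'.symm, mul_zero]
  · simp only [Function.comp_apply, rev_eq (h.2.2.1 q hq).1]
    split_ifs with e
    · rw [e.2, neg_pow t]
      push_cast
      ring
    · rw [zero_mul]

variable (D c K) in
/-- the form -/
def fm : Matrix D.Idx D.Idx K := of fun a b =>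
  match a, b with
  | Sum.inl i, Sum.inl j => ((fa D c i j : ℤ) : K)
  | Sum.inr s, Sum.inr u => if u = s.rev then ((c s : ℤ) : K) else 0
  | _, _ => 0

theorem fm_l (i : Fin D.rank) (v : D.Idx → K) :
    (fm D c K *ᵥ v) (Sum.inl i) = ∑ j : Fin D.rank, ((fa D c i j : ℤ) : K) * v (Sum.inl j) := by
  simp [mulVec, dotProduct, fm]

theorem fm_r (s : Fin D.nroots) (v : D.Idx → K) : (fm D c K *ᵥ v) (Sum.inr s) = ((c s : ℤ) : K) * v (Sum.inr s.rev) := by
  simp [mulVec, dotProduct, fm]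

theorem fm_tr (h : OkA D c) : (fm D c K)ᵀ = fm D c K := by
  ext a b
  rcases a with i | s <;> rcases b with j | u
  · exact congrArg Int.cast (h.2.1 j j.2 i i.2)
  · rfl
  · rfl
  · show (if s = u.rev then ((c u : ℤ) : K) else 0) = if u = s.rev then ((c s : ℤ) : K) else 0
    by_cases e : s = u.rev
    · subst e
      rw [if_pos rfl, if_pos (Fin.rev_rev u).symm, Fin.val_rev, h.1 u u.2]
    · rw [if_neg e, if_neg fun e' => e (by rw [e', Fin.rev_rev])]

theorem fm_x (hA : OkA D c) {r : Fin D.nroots} (h : Ok D c r) (t : K) :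
    fm D c K * D.xMat K r t = (D.xMat K r (-t))ᵀ * fm D c K := by
  have k0 : ∀ (t : K) a b, (fm D c K * D.xMat K r t) a b = (fm D c K *ᵥ fun j => D.xMat K r t j b) a := fun _ _ _ => rfl
  have k1 : ∀ (t : K) a b, ((D.xMat K r t)ᵀ * fm D c K) a b = (fm D c K *ᵥ fun j => D.xMat K r t j a) b := fun t a b => by
    rw [← k0, ← transpose_apply (fm D c K * _), transpose_mul, fm_tr hA]
  have hn : r.rev ≠ r := fun e => h.2.1 (congrArg Fin.val e)
  have k2 : ∀ (t : K) i u, (fm D c K *ᵥ fun j => D.xMat K r t j (Sum.inr u)) (Sum.inl i) =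
      (fm D c K *ᵥ fun j => D.xMat K r (-t) j (Sum.inl i)) (Sum.inr u) := fun t i u => by
    have h1 : u.val = D.negIdx.getD r 0 ↔ u.rev = r := by rw [h.1, Fin.rev_eq_iff, Fin.ext_iff, Fin.val_rev]
    rw [fm_l, fm_r, xMat_rl]
    simp only [xMat_lr, h1]
    by_cases e : u.rev = r
    · have e1 : u ≠ r := fun e' => hn (e' ▸ e)
      have e2 := congrArg (Int.cast (R := K)) (h.2.2.2.2 i)
      rw [← e, Fin.val_rev, hA.1 u u.2, ← Fin.val_rev, e] at e2
      push_cast at e2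
      simp only [e, e1, if_true, if_false, ← mul_assoc, ← Finset.sum_mul, e2]
      ring
    · simp [e]
  ext a b
  rw [k0, k1]
  rcases a with i | s <;> rcases b with j | u
  · rw [fm_l, fm_l]
    simp [xMat_ll, hA.2.1 i i.2 j j.2]
  · exact k2 t i u
  · rw [k2, neg_neg]
  · rw [fm_r, fm_r, x_symm hA.1 h, mul_comm]

variable (D K) in
/-- the adjoint representation -/
def rh : D.group K →* Matrix D.Idx D.Idx K := (Units.coeHom _).comp (D.group K).subtype

theorem x_ok (hD : InList D) (hA : OkA D c) (hc : ∀ s < D.nroots, (c s : K) ≠ 0) {r : ℕ} (hr : r < D.nroots)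
    (h : Ok D c r) (t : K) : (rh D K (xS hD r t))ᵀ * fm D c K * rh D K (xS hD r t) = fm D c K ∧
      ∀ v, fm D c K *ᵥ v = 0 → rh D K (xS hD r t) *ᵥ v = v := by
  have e : ∀ t, rh D K (xS hD r t) = D.xMat K ⟨r, hr⟩ t := fun t => (mat_xS hD r t).trans (x_of_lt D K hr t)
  have h1 := fm_x hA (r := ⟨r, hr⟩) h t
  have h2 : ∀ v, fm D c K *ᵥ v = 0 → ∀ s, v (Sum.inr s) = 0 := fun v hv s => by
    have h3 := congrFun hv (Sum.inr s.rev)
    rw [fm_r, Fin.rev_rev] at h3
    exact (mul_eq_zero.1 h3).resolve_left (hc _ s.rev.2)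
  refine ⟨?_, fun v hv => funext fun a => ?_⟩
  · rw [Matrix.mul_assoc, e, h1, ← Matrix.mul_assoc, ← transpose_mul, ← e, ← e, ← map_mul, xS_mul, neg_add_cancel, xS_zero,
      map_one, transpose_one, Matrix.one_mul]
  · rw [e]
    rcases a with i | s
    · simp [mulVec, dotProduct, xMat_ll, h2 v hv]
    · rw [h2 v hv]
      exact h2 _ (by rw [mulVec_mulVec, h1, ← mulVec_mulVec, hv, mulVec_zero]) s

/-- the form is invariant and its radical is fixed -/
theorem fm_inv (hD : InList D) (hA : OkA D c) (hc : ∀ s < D.nroots, (c s : K) ≠ 0) (g : D.group K) :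
    (rh D K g)ᵀ * fm D c K * rh D K g = fm D c K ∧ ∀ v, fm D c K *ᵥ v = 0 → rh D K g *ᵥ v = v := by
  have k : ∀ a : D.group K, rh D K a * rh D K a⁻¹ = 1 := fun a => by rw [← map_mul, mul_inv_cancel, map_one]
  let H : Subgroup (D.group K) :=
    { carrier := {g | (rh D K g)ᵀ * fm D c K * rh D K g = fm D c K ∧ ∀ v, fm D c K *ᵥ v = 0 → rh D K g *ᵥ v = v}
      one_mem' := by simp
      mul_mem' := fun {a b} ha hb => ⟨by
        rw [map_mul, transpose_mul, Matrix.mul_assoc _ (rh D K a)ᵀ, ← Matrix.mul_assoc _ (rh D K a),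
          Matrix.mul_assoc _ _ (rh D K a), ha.1]
        exact hb.1, fun v hv => by rw [map_mul, ← mulVec_mulVec, hb.2 v hv, ha.2 v hv]⟩
      inv_mem' := fun {a} ha => ⟨by
        conv_lhs => rw [← ha.1]
        rw [Matrix.mul_assoc, Matrix.mul_assoc _ (rh D K a), k, Matrix.mul_one, ← Matrix.mul_assoc,
          ← transpose_mul, k, transpose_one, Matrix.one_mul], fun v hv => by
        conv_lhs => rw [← ha.2 v hv]
        rw [mulVec_mulVec, ← map_mul, inv_mul_cancel, map_one, one_mulVec]⟩ }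
  have h : H = ⊤ := eq_top_of_simple hD H (fun i hi t => x_ok hD hA hc (simple_lt hD hi) (hA.2.2 i hi).1 t)
    fun i hi t => x_ok hD hA hc (neg_simple_lt hD hi) (hA.2.2 i hi).2 t
  exact h.ge (Subgroup.mem_top g)

end Cfsg.Agent.N2.Ex.K.Co
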