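import Cfsg.Agent.SB.Exc.Defs
import Cfsg.Agent.DS.Ex.TorFrame
import Cfsg.Agent.DS.Nt.Base

/-!
# S3519, exceptional groups, the box (K): fixed vectors on the adjoint module (interface, helper70)

`Y = YY D p`.  `Γ` is a group of automorphisms of `Y` (the lifts of `H`), `σ ∈ Γ` the Steinberg endomorphism (`KF`),
`R ≤ Y ^ σ` a finite `Γ`-invariant group (the image of `E(A)`).  See `notes/N2/kbox.md`.

* `PL μ` : the parabolic subgroup of a real cocharacter; `Irr R` : `R` lies in no proper parabolic subgroup;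
* `Frm φ y ψ` : `conj y * φ` permutes the root groups, `ψ` is its transpose on the root lattice;
* `HasP` (invariant `p`-subgroup of the finite group), `HasT` (invariant toral group), `HasM` (invariant subgroup of
  maximal rank);
* `Sit σ Γ R` : the standing hypotheses;
* `PRep` : polynomial representations with weights in the root lattice.
-/

set_option autoImplicit false
set_option linter.unusedSectionVars false

namespace Cfsg.Agent.N2.Ex.K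

open CoxeterSystem Cfsg Cfsg.Lie Cfsg.Lie.ChevalleyDatum
open Cfsg.Agent.ChevalleyStructure Cfsg.Agent.ChevalleyStructure.Elts Cfsg.Agent.ChevalleyStructure.CoxeterGeom
  Cfsg.Agent.ChevalleyStructure.CoxeterGeomTypes
open Cfsg.Agent.Tits.Roots Cfsg.Agent.Tits.Core Cfsg.Agent.Nodes Cfsg.Agent.Nodes.Reps Cfsg.Agent.Nodes.BNOf
  Cfsg.Agent.Nodes.RGDChev Cfsg.Agent.Nodes.Bruhat
open Cfsg.Agent.KFacts.RgdField Cfsg.Agent.KFacts.RgdChevCoord
open Cfsg.Agent.BpExc Cfsg.Agent.BpExc.TorCent Cfsg.Agent.BpExc.TorChev Cfsg.Agent.BpExc.Tow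
  Cfsg.Agent.BpExc.TowChev Cfsg.Agent.BpExc.Fr Cfsg.Agent.BpExc.LangFr
open Cfsg.Agent.H469.Exc Cfsg.Agent.H129.TorusChar Cfsg.Agent.DS.Ex Cfsg.Agent.DS.Nt Cfsg.Agent.DS.Ex.Tor
  Cfsg.Agent.SB.Exc

section Defs

variable {D : ChevalleyDatum} {l : ℕ} {M : CoxeterMatrix (Fin l)} (hp : IsType D l M) (p : ℕ) [Fact p.Prime]

/-- the parabolic subgroup of a real cocharacter -/
noncomputable def PL (μ : (Fin l → ℤ) →+ ℝ) : Subgroup (YY D p) := DD D p {a | RT hp a ∧ 0 ≤ μ a}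

/-- `R` lies in no proper parabolic subgroup -/
def Irr (R : Subgroup (YY D p)) : Prop :=
  ∀ (g : YY D p) (μ : (Fin l → ℤ) →+ ℝ), (∀ r ∈ R, g⁻¹ * r * g ∈ PL hp p μ) → μ = 0

/-- `x ↦ y * φ x * y⁻¹` normalises the torus and permutes the root groups; `ψ` is its transpose -/
structure Frm (φ : MulAut (YY D p)) (y : YY D p) (ψ : (Fin l → ℤ) →+ (Fin l → ℤ)) : Prop where
  tor : ∀ t, y * φ t * y⁻¹ ∈ TT D (KK p) ↔ t ∈ TT D (KK p)
  chr : ∀ t ∈ TT D (KK p), ∀ x, cX hp (y * φ t * y⁻¹) x = cX hp t (ψ x)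
  root : ∃ g : (Fin l → ℤ) → (Fin l → ℤ), Set.BijOn g {a | RT hp a} {a | RT hp a} ∧ ∀ a, RT hp a →
    (∃ c : ℤ, 0 < c ∧ ψ (g a) = c • a) ∧ ∀ x, y * φ x * y⁻¹ ∈ XX D l (KK p) (g a) ↔ x ∈ XX D l (KK p) a

/-- the Steinberg endomorphism `σ` and the group `Γ` of lifts -/
structure KF (σ : MulAut (YY D p)) (Γ : Subgroup (MulAut (YY D p))) : Prop where
  mem : σ ∈ Γ
  comm : ∀ φ ∈ Γ, φ * σ = σ * φ
  amb : DL.Amb p (D.group (KK p)).subtype σ
  sem : ∃ y g ex Mx, Sem hp p (MulAut.conj y * σ) g ex Mx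
  frmσ : ∃ y ψ, Frm hp p σ y ψ
  frm : ∀ φ ∈ Γ, ∃ (m : ℕ) (y : YY D p) (ψ : (Fin l → ℤ) →+ (Fin l → ℤ)), Frm hp p (φ * σ ^ m) y ψ

variable {p} in
/-- `A` is invariant under `Γ` -/
def Iv (Γ : Subgroup (MulAut (YY D p))) (A : Subgroup (YY D p)) : Prop := ∀ φ ∈ Γ, ∀ a ∈ A, φ a ∈ A

/-- all lifts are semilinear on the adjoint module (always, except for `F₄`, `p = 2`) -/
def Ev (σ : MulAut (YY D p)) (Γ : Subgroup (MulAut (YY D p))) : Prop :=
  ∀ φ ∈ Γ, ∃ m n : ℕ, IsFrob p n (φ * σ ^ m)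

/-- an invariant `p`-subgroup of the finite group -/
def HasP (σ : MulAut (YY D p)) (Γ : Subgroup (MulAut (YY D p))) : Prop :=
  ∃ Q : Subgroup (YY D p), Q ≠ ⊥ ∧ IsPGroup p Q ∧ (∀ u ∈ Q, σ u = u) ∧ Iv Γ Q

/-- an invariant finite toral subgroup -/
def HasT (Γ : Subgroup (MulAut (YY D p))) : Prop :=
  ∃ A : Subgroup (YY D p), A ≠ ⊥ ∧ Finite A ∧ Toral p A ∧ Iv Γ A

/-- an invariant proper subgroup of maximal rank -/
def HasM (Γ : Subgroup (MulAut (YY D p))) : Prop :=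
  ∃ (x : YY D p) (S : Set (Fin l → ℤ)), CS hp S ∧ DD D p S ≠ ⊤ ∧
    ∀ φ ∈ Γ, ∀ y ∈ DD D p S, x⁻¹ * φ (x * y * x⁻¹) * x ∈ DD D p S

/-- for some prime `r ≠ p` no element of order `r` centralises `R` -/
def NoC (R : Subgroup (YY D p)) : Prop :=
  ∃ r : ℕ, r.Prime ∧ r ≠ p ∧ ∀ c : YY D p, (∀ x ∈ R, c * x = x * c) → c ^ r = 1 → c = 1

/-- **The standing hypotheses.** -/
structure Sit (σ : MulAut (YY D p)) (Γ : Subgroup (MulAut (YY D p))) (R : Subgroup (YY D p)) : Prop where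
  kf : KF hp p σ Γ
  fin : Finite R
  inv : Iv Γ R
  fix : ∀ x ∈ R, σ x = x
  cen : ∀ c : YY D p, σ c = c → (∀ x ∈ R, c * x = x * c) → c = 1
  noP : ¬ HasP p σ Γ
  noM : ¬ HasM hp p Γ

/-- toral vectors -/
def InT (v : D.Idx → KK p) : Prop := ∀ s, v (Sum.inr s) = 0

/-- the weights of the adjoint module -/
def wL (D : ChevalleyDatum) (l : ℕ) : D.Idx → Fin l → ℤ := Sum.elim (fun _ => 0) fun s : Fin D.nroots => vec D l s

/-- polynomial representations with weights in the root lattice -/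
structure PRep (S : Type) [Fintype S] [DecidableEq S] where
  ρ : YY D p →* Matrix S S (KK p)
  w : S → Fin l → ℤ
  poly : ∃ A : Matrix S S (MvPolynomial (D.Idx × D.Idx) (KK p)), ∀ (y : YY D p) (s s' : S),
    ρ y s s' = MvPolynomial.aeval (LangThm.co (y : GL D.Idx (KK p))) (A s s')
  tor : ∀ t ∈ TT D (KK p), ρ t = Matrix.diagonal fun s => cX hp t (w s)
  up : ∀ a, RT hp a → ∀ x ∈ XX D l (KK p) a, ∀ s s', ρ x s s' ≠ 0 → ∃ m : ℕ, w s = w s' + (m : ℤ) • a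

end Defs

/-! ### the boxes -/

/-- [XF] the frame of `SB.Exc` gives `KF`; `Γ` = the lifts of `H` -/
def BoxXF : Prop := ∀ (D : ChevalleyDatum) (l : ℕ) (M : CoxeterMatrix (Fin l)) (hp : IsType D l M) (p : ℕ) [Fact p.Prime]
  (q : ℕ) (G : Type) [Group G] (T H : Subgroup G) (F : XF hp p q T), T.Normal → Subgroup.centralizer (T : Set G) = ⊥ →
    KF hp p F.L.σ ((H.comap F.L.π).map F.L.Γ.subtype) ∧
      (∀ A : Subgroup (YY D p), Iv ((H.comap F.L.π).map F.L.Γ.subtype) A ↔ F.L.Inv H A) ∧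
      ((∀ φ : F.L.Γ, F.L.π φ ∈ H → (F.κ : ℤ) ∣ F.deg φ) → Ev p F.L.σ ((H.comap F.L.π).map F.L.Γ.subtype))

/-- [END] an invariant proper parabolic subgroup gives an invariant `p`-subgroup of the finite group -/
def BoxEnd : Prop := ∀ (D : ChevalleyDatum) (l : ℕ) (M : CoxeterMatrix (Fin l)) (hp : IsType D l M) (p : ℕ) [Fact p.Prime]
  (σ : MulAut (YY D p)) (Γ : Subgroup (MulAut (YY D p))), KF hp p σ Γ → ∀ (g : YY D p) (μ : (Fin l → ℤ) →+ ℝ), μ ≠ 0 →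
    (∀ i, 0 ≤ μ (sr i)) → (∀ φ ∈ Γ, (∃ y ψ, Frm hp p φ y ψ) → ∃ (y : YY D p) (ψ : (Fin l → ℤ) →+ (Fin l → ℤ)) (s : ℝ), Frm hp p φ y ψ ∧ 0 < s ∧
      (∀ a, μ (ψ a) = s * μ a) ∧ g⁻¹ * φ g * y⁻¹ ∈ PL hp p μ) → HasP p σ Γ

/-- [TM] an invariant toral group gives an invariant subgroup of maximal rank -/
def BoxTM : Prop := ∀ (D : ChevalleyDatum) (l : ℕ) (M : CoxeterMatrix (Fin l)) (hp : IsType D l M) (p : ℕ) [Fact p.Prime]
  (σ : MulAut (YY D p)) (Γ : Subgroup (MulAut (YY D p))), KF hp p σ Γ → HasT p Γ → HasM hp p Γ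

/-- [C] the centraliser of `R` contains no torus -/
def BoxC : Prop := ∀ (D : ChevalleyDatum) (l : ℕ) (M : CoxeterMatrix (Fin l)) (hp : IsType D l M) (p : ℕ) [Fact p.Prime]
  (σ : MulAut (YY D p)) (Γ : Subgroup (MulAut (YY D p))) (R : Subgroup (YY D p)), KF hp p σ Γ → Finite R → Iv Γ R →
    (∀ x ∈ R, σ x = x) → (∀ c : YY D p, σ c = c → (∀ x ∈ R, c * x = x * c) → c = 1) → ¬ HasT p Γ → NoC p R

/-- [IRR] -/
def BoxIrr : Prop := ∀ (D : ChevalleyDatum) (l : ℕ) (M : CoxeterMatrix (Fin l)) (hp : IsType D l M) (p : ℕ) [Fact p.Prime]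
  (σ : MulAut (YY D p)) (Γ : Subgroup (MulAut (YY D p))) (R : Subgroup (YY D p)), KF hp p σ Γ → Finite R → Iv Γ R →
    NoC p R → ¬ HasP p σ Γ → Irr hp p R

/-- [SS] the fixed vectors of an irreducible group are semisimple -/
def BoxSS : Prop := ∀ (D : ChevalleyDatum) (l : ℕ) (M : CoxeterMatrix (Fin l)) (hp : IsType D l M), Typ D →
  ∀ (p : ℕ) [Fact p.Prime] (R : Subgroup (YY D p)), Irr hp p R →
    ∀ v ∈ Fx p (R : Set (YY D p)), ∃ g : YY D p, InT p (ad D p g v)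

/-- [TOR] a fixed space of semisimple vectors is conjugate into the Cartan subalgebra -/
def BoxTor : Prop := ∀ (D : ChevalleyDatum) (l : ℕ) (M : CoxeterMatrix (Fin l)) (_ : IsType D l M), Typ D →
  ∀ (p : ℕ) [Fact p.Prime] (Z : Set (YY D p)), (∀ v ∈ Fx p Z, ∃ g : YY D p, InT p (ad D p g v)) →
    ∃ g : YY D p, ∀ v ∈ Fx p Z, InT p (ad D p g v)

/-- [MX] a toral fixed space is central, or gives an invariant subgroup of maximal rank -/
def BoxMx : Prop := ∀ (D : ChevalleyDatum) (l : ℕ) (M : CoxeterMatrix (Fin l)) (hp : IsType D l M), Typ D →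
  ∀ (p : ℕ) [Fact p.Prime] (σ : MulAut (YY D p)) (Γ : Subgroup (MulAut (YY D p))) (R : Subgroup (YY D p)),
    KF hp p σ Γ → Ev p σ Γ → Iv Γ R → (∃ g : YY D p, ∀ v ∈ Fx p (R : Set (YY D p)), InT p (ad D p g v)) →
      ¬ HasM hp p Γ → Fx p (R : Set (YY D p)) ≤ Fx p (Set.univ : Set (YY D p))

/-- [LIM] the orbit of a vector fixed by an irreducible group contains its limits -/
def BoxLim : Prop := ∀ (D : ChevalleyDatum) (l : ℕ) (M : CoxeterMatrix (Fin l)) (hp : IsType D l M) (p : ℕ) [Fact p.Prime]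
  (S : Type) [Fintype S] [DecidableEq S] (P : PRep hp p S) (Z : Subgroup (YY D p)), Irr hp p Z →
    ∀ x : S → KK p, (∀ z ∈ Z, (P.ρ z).mulVec x = x) → ∀ (g : YY D p) (μ : (Fin l → ℤ) →+ ℝ),
      (∀ s, (P.ρ g).mulVec x s ≠ 0 → 0 ≤ μ (P.w s)) →
        ∃ h : YY D p, ∀ s, (μ (P.w s) = 0 → (P.ρ h).mulVec x s = (P.ρ g).mulVec x s) ∧
          (μ (P.w s) ≠ 0 → (P.ρ h).mulVec x s = 0)

end Cfsg.Agent.N2.Ex.K
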