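import Cfsg.Agent.N2.Ex.K.Defs
import Cfsg.Agent.ChevalleyStructure.JacAll

/-!
# S3519, exceptional groups, box (K): `boxTor` (helper71)

`br x y` is the Lie bracket on the adjoint module, `Am x` the matrix of `ad x`.
-/

set_option autoImplicit false
set_option linter.unusedSectionVars false

namespace Cfsg.Agent.N2.Ex.K

open Cfsg Cfsg.Lie Cfsg.Lie.ChevalleyDatum Matrix Module
open Cfsg.Agent.ChevalleyStructure Cfsg.Agent.ChevalleyStructure.LieAbs Cfsg.Agent.ChevalleyStructure.LieAut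
open Cfsg.Agent.ChevalleyStructure.JacMain (adA adH)
open Cfsg.Agent.H469.Exc Cfsg.Agent.DS.Ex Cfsg.Agent.DS.Nt

namespace Tor

section lin

variable {ι K : Type} [Fintype ι] [DecidableEq ι] [Field K]

/-- a diagonal matrix without non-zero eigenvalue on an invariant subspace -/
theorem diag_zero (d : ι → K) (W : Submodule K (ι → K)) (hW : ∀ y ∈ W, diagonal d *ᵥ y ∈ W)
    (h : ∀ y ∈ W, ∀ c : K, diagonal d *ᵥ y = c • y → c • y = 0) : ∀ y ∈ W, diagonal d *ᵥ y = 0 := by
  classical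
  intro y
  induction hn : (Finset.univ.filter fun j => y j ≠ 0).card using Nat.strong_induction_on generalizing y with
  | _ n ih =>
  intro hy
  by_contra h0
  obtain ⟨j, hj⟩ := Function.ne_iff.1 h0
  rw [mulVec_diagonal, Pi.zero_apply] at hj
  have h1 : diagonal d *ᵥ (diagonal d *ᵥ y - d j • y) = 0 := by
    refine ih _ ?_ _ rfl (W.sub_mem (hW y hy) (W.smul_mem _ hy))
    rw [← hn]
    refine Finset.card_lt_card ⟨fun i hi => ?_, fun h2 => ?_⟩
    · rw [Finset.mem_filter] at hi ⊢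
      refine ⟨hi.1, fun h3 => hi.2 ?_⟩
      simp [mulVec_diagonal, h3]
    · have h3 := h2 (Finset.mem_filter.2 ⟨Finset.mem_univ j, right_ne_zero_of_mul hj⟩)
      simp [mulVec_diagonal] at h3
  rw [mulVec_sub, mulVec_smul, sub_eq_zero] at h1
  exact smul_ne_zero (left_ne_zero_of_mul hj) h0 (h _ (hW y hy) _ h1)

/-- generic linear combinations of commuting matrices -/
theorem generic [Infinite K] {X Y Z : Matrix ι ι K} (hc : X * Y = Y * X) (hZ : Z * Y * Y = Y) :
    ∃ c : K, ∀ v, (X + c • Y) *ᵥ v = 0 → Y *ᵥ v = 0 := by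
  obtain ⟨c, hc'⟩ := (Module.End.finite_hasEigenvalue (toLin' (Z * X))).infinite_compl.nonempty
  refine ⟨-c, fun v hv => by_contra fun h0 => hc' (Module.End.hasEigenvalue_of_hasEigenvector (x := Y *ᵥ v) ⟨?_, h0⟩)⟩
  rw [add_mulVec, smul_mulVec, neg_smul, add_neg_eq_zero] at hv
  rw [Module.End.mem_eigenspace_iff, toLin'_apply, mulVec_mulVec, Matrix.mul_assoc, hc, ← Matrix.mul_assoc, ← mulVec_mulVec, hv,
    mulVec_smul, mulVec_mulVec, hZ]

end lin

variable {D : ChevalleyDatum} {p : ℕ} [Fact p.Prime]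

/-- the matrix of `ad x` -/
noncomputable abbrev Am (x : D.Idx → KK p) : Matrix D.Idx D.Idx (KK p) := adv (adR D (KK p)) x

/-- the matrix of an element of the group -/
abbrev mt (g : YY D p) : Matrix D.Idx D.Idx (KK p) := ((g : GL D.Idx (KK p)) : Matrix D.Idx D.Idx (KK p))

/-- the eigenvalues of a toral vector -/
noncomputable def wt (h : D.Idx → KK p) : D.Idx → KK p :=
  Sum.elim (fun _ => 0) fun s => ∑ i : Fin D.rank, h (Sum.inl i) * (Columns.car D i s : KK p)

theorem inList (hD : Typ D) : D ∈ [chevG2, chevB2, chevD4, chevF4, chevE6, chevE7, chevE8] := by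
  rcases hD with rfl | rfl | rfl | rfl <;> simp

theorem car_one (hD : Typ D) : ∀ s : Fin D.nroots, ∃ i : Fin D.rank, Columns.car D i s = 1 ∨ Columns.car D i s = -1 := by
  rcases hD with rfl | rfl | rfl | rfl <;> decide +kernel

theorem Am_tor {h : D.Idx → KK p} (hh : InT p h) : Am h = diagonal (wt h) := by
  ext j k
  rw [Am, adv, Fintype.sum_sum_type, Finset.sum_eq_zero (f := fun s => h (Sum.inr s) • _) fun s _ => by rw [hh s, zero_smul],
    add_zero, Matrix.sum_apply]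
  simp only [adR_def, JacMain.adA_inl, adH, Matrix.smul_apply, map_apply, diagonal_apply, smul_eq_mul]
  split_ifs with e
  · rcases j with j | j <;> simp [wt]
  · simp

theorem br_tor {h : D.Idx → KK p} (hh : InT p h) (v : D.Idx → KK p) : Am v *ᵥ h = -(Am h *ᵥ v) := by
  have h1 : ∀ j, adR D (KK p) j *ᵥ h = -(Am h *ᵥ Pi.single j 1) := by
    intro j
    funext k
    rw [Am_tor hh, Pi.neg_apply, mulVec_diagonal, mulVec, dotProduct, Fintype.sum_sum_type,
      Finset.sum_eq_zero (f := fun s => _ * h (Sum.inr s)) fun s _ => by rw [hh s, mul_zero], add_zero]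
    rcases j with j | j
    · rcases k with k | k
      · simp [adR_def, JacMain.adA_inl, adH, diagonal_apply, wt]
      · simp [adR_def, JacMain.adA_inl, adH]
    · simp only [adR_def, JacMain.adA_inr, map_apply, Ring.coefE_entry D j.val 1 j.2]
      rcases k with k | k
      · simp [wt]
      · by_cases e : k = j
        · subst e
          simp [wt, Columns.car, mul_comm]
        · simp [e, Fin.val_inj]
  rw [Am, adv, Matrix.sum_mulVec]
  simp only [smul_mulVec, h1, smul_neg, Finset.sum_neg_distrib, ← mulVec_smul, ← mulVec_sum]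
  congr 2
  funext k
  simp [Finset.sum_apply, Pi.single_apply]

theorem br_tor_tor {h h' : D.Idx → KK p} (hh : InT p h) (hh' : InT p h') : Am h *ᵥ h' = 0 := by
  funext k
  rw [Am_tor hh, mulVec_diagonal]
  rcases k with k | k
  · exact zero_mul _
  · rw [hh' k, mul_zero]
    rfl

/-- `C_L(t) = t` -/
theorem inT_of (hD : Typ D) {v : D.Idx → KK p} (h : ∀ t, InT p t → Am t *ᵥ v = 0) : InT p v := by
  intro s
  obtain ⟨i, hi⟩ := car_one hD s
  have h1 : InT p (Pi.single (Sum.inl i) 1 : D.Idx → KK p) := fun s => Pi.single_eq_of_ne Sum.inr_ne_inl _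
  have h2 := congrFun (h _ h1) (Sum.inr s)
  rw [Am_tor h1, mulVec_diagonal] at h2
  rcases hi with hi | hi <;> simpa [wt, Pi.single_apply, hi] using h2

theorem mt_inv_mul (g : YY D p) : mt g⁻¹ * mt g = 1 := Units.inv_mul _

theorem mt_mul_inv (g : YY D p) : mt g * mt g⁻¹ = 1 := Units.mul_inv _

theorem mt_Am (hD : Typ D) (g : YY D p) (v : D.Idx → KK p) : mt g * Am v = Am (ad D p g v) * mt g :=
  JacAll.group_mul_adv D (inList hD) (KK p) g g.2 v

/-- the group acts by automorphisms -/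
theorem ad_br (hD : Typ D) (g : YY D p) (x y : D.Idx → KK p) : ad D p g (Am x *ᵥ y) = Am (ad D p g x) *ᵥ ad D p g y := by
  rw [ad_apply, ad_apply p g y, mulVec_mulVec, mulVec_mulVec, mt_Am hD]

theorem ad_inj (g : YY D p) : Function.Injective (ad D p g) := (adE g).injective

theorem ad_zero {g : YY D p} {v : D.Idx → KK p} (h : ad D p g v = 0) : v = 0 := ad_inj g (h.trans (map_zero _).symm)

/-- semisimple vectors -/
def SS (x : D.Idx → KK p) : Prop := ∃ g : YY D p, InT p (ad D p g x)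

theorem SS.anti (hD : Typ D) {x : D.Idx → KK p} (h : SS x) (v : D.Idx → KK p) : Am v *ᵥ x = -(Am x *ᵥ v) := by
  obtain ⟨g, hg⟩ := h
  refine ad_inj g ?_
  rw [map_neg, ad_br hD, ad_br hD, br_tor hg]

theorem SS.self (hD : Typ D) {x : D.Idx → KK p} (h : SS x) : Am x *ᵥ x = 0 := by
  obtain ⟨g, hg⟩ := h
  exact ad_zero (g := g) (by rw [ad_br hD, br_tor_tor hg hg])

theorem SS.pinv (hD : Typ D) {x : D.Idx → KK p} (h : SS x) : ∃ Z, Z * Am x * Am x = Am x := by
  obtain ⟨g, hg⟩ := h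
  have h1 : Am x = mt g⁻¹ * diagonal (wt (ad D p g x)) * mt g := by
    rw [← Am_tor hg, Matrix.mul_assoc, ← mt_Am hD, ← Matrix.mul_assoc, mt_inv_mul, Matrix.one_mul]
  refine ⟨mt g⁻¹ * diagonal (fun j => (wt (ad D p g x) j)⁻¹) * mt g, ?_⟩
  have h2 : ∀ A B : Matrix D.Idx D.Idx (KK p), mt g⁻¹ * A * mt g * (mt g⁻¹ * B * mt g) = mt g⁻¹ * (A * B) * mt g := fun A B => by
    simp only [Matrix.mul_assoc]
    rw [← Matrix.mul_assoc (mt g), mt_mul_inv, Matrix.one_mul]
  rw [h1, h2, h2, diagonal_mul_diagonal, diagonal_mul_diagonal]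
  congr 3
  funext j
  by_cases h0 : wt (ad D p g x) j = 0
  · rw [h0, mul_zero]
  · rw [inv_mul_cancel₀ h0, one_mul]

theorem SS.sq (hD : Typ D) {x v : D.Idx → KK p} (h : SS x) (hv : Am x *ᵥ (Am x *ᵥ v) = 0) : Am x *ᵥ v = 0 := by
  obtain ⟨Z, hZ⟩ := h.pinv hD
  rw [← hZ, ← mulVec_mulVec, ← mulVec_mulVec, hv, mulVec_zero]

/-- a subalgebra of semisimple vectors is abelian -/
theorem abelian (hD : Typ D) {W : Submodule (KK p) (D.Idx → KK p)} (hb : ∀ x ∈ W, ∀ y ∈ W, Am x *ᵥ y ∈ W)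
    (hs : ∀ x ∈ W, SS x) {x y : D.Idx → KK p} (hx : x ∈ W) (hy : y ∈ W) : Am x *ᵥ y = 0 := by
  obtain ⟨g, hg⟩ := hs x hx
  have h1 : ∀ z, diagonal (wt (ad D p g x)) *ᵥ ad D p g z = ad D p g (Am x *ᵥ z) := fun z => by rw [ad_br hD, Am_tor hg]
  refine ad_zero (g := g) ?_
  rw [← h1]
  refine diag_zero _ (W.map (ad D p g)) ?_ ?_ _ ⟨y, hy, rfl⟩
  · rintro _ ⟨z, hz, rfl⟩
    exact ⟨_, hb x hx z hz, (h1 z).symm⟩
  · rintro _ ⟨z, hz, rfl⟩ c hc
    rw [h1, ← map_smul] at hc
    have h2 := ad_inj g hc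
    have h3 : Am z *ᵥ x = -(c • z) := by rw [(hs x hx).anti hD, h2]
    have h4 := (hs z hz).sq hD (v := x) (by rw [h3, mulVec_neg, mulVec_smul, (hs z hz).self hD, smul_zero, neg_zero])
    rw [← map_smul, neg_eq_zero.1 (h3.symm.trans h4), map_zero]

/-- **a subalgebra of semisimple vectors is conjugate into the Cartan subalgebra** -/
theorem toral (hD : Typ D) {W : Submodule (KK p) (D.Idx → KK p)} (hb : ∀ x ∈ W, ∀ y ∈ W, Am x *ᵥ y ∈ W)
    (hs : ∀ x ∈ W, SS x) : ∃ g : YY D p, ∀ v ∈ W, InT p (ad D p g v) := by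
  obtain ⟨x, hx, hmin⟩ := (measure fun x : D.Idx → KK p => finrank (KK p) (LinearMap.ker (toLin' (Am x)))).wf.has_min
    (W : Set (D.Idx → KK p)) ⟨0, W.zero_mem⟩
  obtain ⟨g, hg⟩ := hs x hx
  refine ⟨g, fun y hy => inT_of hD fun t ht => ?_⟩
  obtain ⟨Z, hZ⟩ := (hs y hy).pinv hD
  have h1 : Am x * Am y = Am y * Am x := by
    have h2 := JacAll.jacR_all D (inList hD) (KK p) x y
    rw [abelian hD hb hs hx hy, adv_zero] at h2
    exact (sub_eq_zero.1 h2.symm)
  obtain ⟨c, hc⟩ := generic h1 hZ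
  rw [← adv_smul, ← adv_add] at hc
  have h2 : LinearMap.ker (toLin' (Am (x + c • y))) ≤ LinearMap.ker (toLin' (Am x)) := fun v hv => by
    rw [LinearMap.mem_ker, toLin'_apply] at hv ⊢
    have h3 := hc v hv
    rwa [Am, adv_add, adv_smul, add_mulVec, smul_mulVec, h3, smul_zero, add_zero] at hv
  have h3 := Submodule.eq_of_le_of_finrank_le h2 (not_lt.1 (hmin _ (W.add_mem hx (W.smul_mem c hy))))
  have h4 : ad D p g (ad D p g⁻¹ t) = t := by rw [← ad_mul, mul_inv_cancel, ad_one]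
  have h5 : ad D p g⁻¹ t ∈ LinearMap.ker (toLin' (Am x)) := by
    rw [LinearMap.mem_ker, toLin'_apply]
    exact ad_zero (g := g) (by rw [ad_br hD, h4, br_tor_tor hg ht])
  have h6 := congrArg (ad D p g) (hc _ (h3.ge h5))
  rw [ad_br hD, h4, map_zero, br_tor ht] at h6
  exact neg_eq_zero.1 h6

theorem br_Fx (hD : Typ D) {Z : Set (YY D p)} {x y : D.Idx → KK p} (hx : x ∈ Fx p Z) (hy : y ∈ Fx p Z) :
    Am x *ᵥ y ∈ Fx p Z := fun z hz => by rw [ad_br hD, hx z hz, hy z hz]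

end Tor

/-- **[TOR]** -/
theorem boxTor : BoxTor := fun _ _ _ _ hD _ _ _ h => Tor.toral hD (fun _ hx _ hy => Tor.br_Fx hD hx hy) h

end Cfsg.Agent.N2.Ex.K
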